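import Mathlib
import Cfsg.Agent.Lib.CoprimeCommutator

/-!
# An element of order three without fixed points on a 2-group, acting on a group of order prime to six

`R` is a finite ring with `2 = 0` and `s` a unit with `s² + s + 1 = 0`. If `s` normalises the solvable
group `K` of units, of order prime to six, then `s` centralises `K` (`commute_of_solvable`).
-/

set_option autoImplicit false

namespace Cfsg.Agent.H271.QuadTwo

variable {R : Type*} [Ring R]

/-- `u² + u + 1 = 0`. -/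
def Quad (u : Rˣ) : Prop := (u : R) * u + u + 1 = 0

/-- `g + g⁻¹` -/
def tr (g : Rˣ) : R := (g : R) + ((g⁻¹ : Rˣ) : R)

theorem neg_eq (h2 : ∀ r : R, r + r = 0) (r : R) : -r = r := neg_eq_of_add_eq_zero_left (h2 r)

theorem eq_of_add (h2 : ∀ r : R, r + r = 0) {a b : R} (h : a + b = 0) : a = b := by
  have := eq_neg_of_add_eq_zero_left h
  rwa [neg_eq h2] at this

theorem Quad.cube {u : Rˣ} (h : Quad u) : u ^ 3 = 1 := by
  apply Units.ext
  have h1 : (u : R) * u + u + 1 = 0 := h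
  have h3 : ((u ^ 3 : Rˣ) : R) - 1 = ((u : R) - 1) * ((u : R) * u + u + 1) := by
    rw [Units.val_pow_eq_pow_val]
    noncomm_ring
  rw [h1, mul_zero, sub_eq_zero] at h3
  rw [h3, Units.val_one]

theorem Quad.val_inv (h2 : ∀ r : R, r + r = 0) {u : Rˣ} (h : Quad u) : ((u⁻¹ : Rˣ) : R) = (u : R) + 1 := by
  have h1 : (u : R) * u + u + 1 = 0 := h
  have h3 : (u : R) * ((u : R) + 1) = 1 := by
    apply eq_of_add h2
    rw [← h1]
    noncomm_ring
  calc ((u⁻¹ : Rˣ) : R) = ((u⁻¹ : Rˣ) : R) * ((u : R) * ((u : R) + 1)) := by rw [h3, mul_one]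
    _ = (u : R) + 1 := by rw [← mul_assoc, Units.inv_mul, one_mul]

theorem Quad.inv {u : Rˣ} (h : Quad u) : Quad u⁻¹ := by
  have h1 : (u : R) * u + u + 1 = 0 := h
  have h3 : ((u⁻¹ : Rˣ) : R) * ((u⁻¹ : Rˣ) : R) * ((u : R) * u + u + 1) =
      ((u⁻¹ : Rˣ) : R) * ((u⁻¹ : Rˣ) : R) + ((u⁻¹ : Rˣ) : R) + 1 := by
    have e1 : ((u⁻¹ : Rˣ) : R) * ((u⁻¹ : Rˣ) : R) * ((u : R) * u) = 1 := by
      rw [mul_assoc, ← mul_assoc ((u⁻¹ : Rˣ) : R) (u : R), Units.inv_mul, one_mul, Units.inv_mul]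
    have e2 : ((u⁻¹ : Rˣ) : R) * ((u⁻¹ : Rˣ) : R) * (u : R) = ((u⁻¹ : Rˣ) : R) := by
      rw [mul_assoc, Units.inv_mul, mul_one]
    rw [mul_add, mul_add, e1, e2, mul_one]
    abel
  rw [h1, mul_zero] at h3
  exact h3.symm

theorem Quad.conj {u : Rˣ} (h : Quad u) (k : Rˣ) : Quad (k⁻¹ * u * k) := by
  have h1 : (u : R) * u + u + 1 = 0 := h
  show ((k⁻¹ * u * k : Rˣ) : R) * ((k⁻¹ * u * k : Rˣ) : R) + ((k⁻¹ * u * k : Rˣ) : R) + 1 = 0
  have h3 : ((k⁻¹ * u * k : Rˣ) : R) * ((k⁻¹ * u * k : Rˣ) : R) + ((k⁻¹ * u * k : Rˣ) : R) + 1 =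
      ((k⁻¹ : Rˣ) : R) * ((u : R) * u + u + 1) * k := by
    have e1 : ((k⁻¹ * u * k : Rˣ) : R) * ((k⁻¹ * u * k : Rˣ) : R) = ((k⁻¹ : Rˣ) : R) * ((u : R) * u) * k := by
      rw [← Units.val_mul, ← Units.val_mul, ← Units.val_mul, ← Units.val_mul]
      congr 1
      group
    rw [e1, Units.val_mul, Units.val_mul, mul_add, mul_add, add_mul, add_mul, mul_one, Units.inv_mul]
  rw [h3, h1, mul_zero, zero_mul]

theorem tr_conj (w g : Rˣ) : tr (w⁻¹ * g * w) = ((w⁻¹ : Rˣ) : R) * tr g * w := by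
  have : (w⁻¹ * g * w)⁻¹ = w⁻¹ * g⁻¹ * w := by group
  rw [tr, this, tr, mul_add, add_mul, Units.val_mul, Units.val_mul, Units.val_mul, Units.val_mul]

theorem tr_conj_of_comm {w g : Rˣ} (h : (w : R) * tr g = tr g * w) : tr (w⁻¹ * g * w) = tr g := by
  rw [tr_conj, mul_assoc, ← h, ← mul_assoc, Units.inv_mul, one_mul]

/-- `g = x y`, `x² + x + 1 = y² + y + 1 = 0`: `g + g⁻¹` commutes with `x` and `y`. -/
theorem tr_comm (h2 : ∀ r : R, r + r = 0) {x y : Rˣ} (hx : Quad x) (hy : Quad y) :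
    (x : R) * tr (x * y) = tr (x * y) * x ∧ (y : R) * tr (x * y) = tr (x * y) * y := by
  have e : tr (x * y) = (x : R) * y + (y : R) * x + x + y + 1 := by
    rw [tr, mul_inv_rev, Units.val_mul, Units.val_mul, hx.val_inv h2, hy.val_inv h2]
    noncomm_ring
  have hx' : (x : R) * x + x + 1 = 0 := hx
  have hy' : (y : R) * y + y + 1 = 0 := hy
  have kx : (x : R) * x + x = 1 := eq_of_add h2 hx'
  have ky : (y : R) * y + y = 1 := eq_of_add h2 hy'
  rw [e]
  constructor
  · apply eq_of_add h2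
    have : (x : R) * ((x : R) * y + (y : R) * x + x + y + 1) + ((x : R) * y + (y : R) * x + x + y + 1) * x =
        (((x : R) * x + x) * y + y * ((x : R) * x + x)) + (((x : R) * y * x + x * x + x) + ((x : R) * y * x + x * x + x)) := by
      noncomm_ring
    rw [this, kx, h2, one_mul, mul_one, h2, add_zero]
  · apply eq_of_add h2
    have : (y : R) * ((x : R) * y + (y : R) * x + x + y + 1) + ((x : R) * y + (y : R) * x + x + y + 1) * y =
        (((y : R) * y + y) * x + x * ((y : R) * y + y)) + (((y : R) * x * y + y * y + y) + ((y : R) * x * y + y * y + y)) := by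
      noncomm_ring
    rw [this, ky, h2, one_mul, mul_one, h2, add_zero]

/-- three commuting units with product one and the same traces -/
theorem sq_eq (h2 : ∀ r : R, r + r = 0) {a b c : Rˣ} (hab : Commute a b) (hbc : Commute b c) (hac : Commute a c)
    (h1 : a * b * c = 1) (hb : tr b = tr a) (hc : tr c = tr a) : a * a = b * b := by
  have ea : a⁻¹ = b * c := by
    rw [inv_eq_iff_mul_eq_one, ← mul_assoc, h1]
  have eb : b⁻¹ = a * c := by
    rw [inv_eq_iff_mul_eq_one, ← mul_assoc, ← hab.eq, h1]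
  have ec : c⁻¹ = a * b := by
    rw [inv_eq_iff_mul_eq_one, ← (hac.mul_left hbc).eq, h1]
  have e1 : ((a : R) + b) * (1 + c) = 0 := by
    have : ((a : R) + b) * (1 + c) = tr a + tr b := by
      rw [tr, tr, ea, eb, Units.val_mul, Units.val_mul]
      noncomm_ring
    rw [this, hb, h2]
  have e2 : ((c : R) + a) * (1 + b) = 0 := by
    have : ((c : R) + a) * (1 + b) = tr c + tr a := by
      rw [tr, tr, ea, ec, hbc.eq, Units.val_mul, Units.val_mul]
      noncomm_ring
    rw [this, hc, h2]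
  have e3 : ((a : R) + b) * c = a + b := by
    apply eq_of_add h2
    rw [← e1]
    noncomm_ring
  have e4 : ((a : R) + b) * (a * b) = a + b := by
    have : ((c⁻¹ : Rˣ) : R) = (a : R) * b := by rw [ec, Units.val_mul]
    rw [← this]
    calc ((a : R) + b) * ((c⁻¹ : Rˣ) : R) = (((a : R) + b) * c) * ((c⁻¹ : Rˣ) : R) := by rw [e3]
      _ = a + b := by rw [mul_assoc, Units.mul_inv, mul_one]
  have e5 : ((a : R) + b) * ((a : R) + b) = 0 := by
    have h3 : ((a : R) + b) * (((c : R) + a) * (1 + b)) = (((a : R) + b) * c) + (((a : R) + b) * c) * b +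
        ((a : R) + b) * a + ((a : R) + b) * (a * b) := by noncomm_ring
    rw [e2, mul_zero, e3, e4] at h3
    have h4 : (a : R) + b + (a + b) * b + (a + b) * a + (a + b) = ((a : R) + b) * (a + b) + ((a + b) + (a + b)) := by
      noncomm_ring
    rw [h4, h2, add_zero] at h3
    exact h3.symm
  apply Units.ext
  rw [Units.val_mul, Units.val_mul]
  apply eq_of_add h2
  have h3 : (a : R) * b = b * a := by
    rw [← Units.val_mul, ← Units.val_mul, hab.eq]
  have h4 : ((a : R) + b) * ((a : R) + b) = (a * a + b * b) + (a * b + b * a) := by noncomm_ring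
  rw [h4, h3, h2, add_zero] at e5
  exact e5

theorem commutator_eq_one (h2 : ∀ r : R, r + r = 0) {g z h : Rˣ} (hz2 : z ^ 4 = 1 → z = 1) (hzg : Commute z g)
    (hzh : Commute z h) (hh : h⁻¹ * g * h = g * z) (ht : tr (g * z) = tr g) : z = 1 := by
  have hzg' : (z : R) * g = g * z := by rw [← Units.val_mul, ← Units.val_mul, hzg.eq]
  have e0 : (g * z)⁻¹ = g⁻¹ * z⁻¹ := by rw [mul_inv_rev]; exact (hzg.inv_inv).eq
  have ht' : (g : R) * z + ((g⁻¹ : Rˣ) : R) * ((z⁻¹ : Rˣ) : R) = (g : R) + ((g⁻¹ : Rˣ) : R) := by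
    have := ht
    rw [tr, tr, e0, Units.val_mul, Units.val_mul] at this
    exact this
  have e1 : ((z : R) + 1) * (g * g * z + 1) = 0 := by
    have h3 : (g : R) * z * ((g : R) * z + ((g⁻¹ : Rˣ) : R) * ((z⁻¹ : Rˣ) : R)) = g * z * ((g : R) + ((g⁻¹ : Rˣ) : R)) := by
      rw [ht']
    have h4 : (g : R) * z * (((g⁻¹ : Rˣ) : R) * ((z⁻¹ : Rˣ) : R)) = 1 := by
      rw [← Units.val_mul, ← Units.val_mul, ← Units.val_mul, ← e0, mul_inv_cancel, Units.val_one]
    have h5 : (g : R) * z * ((g⁻¹ : Rˣ) : R) = z := by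
      rw [← hzg', mul_assoc, Units.mul_inv, mul_one]
    have h6 : (g : R) * z * g = g * g * z := by rw [mul_assoc, hzg', ← mul_assoc]
    rw [mul_add, mul_add, h4, h5, h6] at h3
    have h7 : (g : R) * z * (g * z) = z * (g * g * z) := by
      rw [← mul_assoc, h6]
      rw [← mul_assoc (z : R), ← mul_assoc (z : R) (g : R), hzg', mul_assoc (g : R) (z : R) (g : R), hzg', ← mul_assoc]
    rw [h7] at h3
    have h8 : ((z : R) + 1) * (g * g * z + 1) = (z * (g * g * z) + 1) + (g * g * z + z) := by noncomm_ring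
    rw [h8, h3, h2]
  have e2 : ((z : R) + 1) * (g * g * z * (z * z) + 1) = 0 := by
    have h3 : ((h⁻¹ : Rˣ) : R) * (((z : R) + 1) * (g * g * z + 1)) * h = 0 := by rw [e1, mul_zero, zero_mul]
    rw [← h3]
    have c1 : ((h⁻¹ : Rˣ) : R) * ((z : R) + 1) * h = z + 1 := by
      rw [mul_add, add_mul, mul_one, Units.inv_mul, ← Units.val_mul, ← Units.val_mul]
      congr 2
      rw [mul_assoc, hzh.eq, inv_mul_cancel_left]
    have c2 : ((h⁻¹ : Rˣ) : R) * ((g : R) * g * z + 1) * h = g * g * z * (z * z) + 1 := by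
      rw [mul_add, add_mul, mul_one, Units.inv_mul, ← Units.val_mul, ← Units.val_mul, ← Units.val_mul, ← Units.val_mul,
        ← Units.val_mul, ← Units.val_mul]
      congr 2
      calc h⁻¹ * (g * g * z) * h = (h⁻¹ * g * h) * (h⁻¹ * g * h) * (h⁻¹ * (z * h)) := by group
        _ = (g * z) * (g * z) * z := by rw [hh, hzh.eq, inv_mul_cancel_left]
        _ = g * (z * g) * z * z := by group
        _ = g * g * z * (z * z) := by rw [hzg.eq]; group
    calc ((z : R) + 1) * (g * g * z * (z * z) + 1) =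
          (((h⁻¹ : Rˣ) : R) * ((z : R) + 1) * h) * (((h⁻¹ : Rˣ) : R) * ((g : R) * g * z + 1) * h) := by rw [c1, c2]
      _ = ((h⁻¹ : Rˣ) : R) * ((z : R) + 1) * (h * ((h⁻¹ : Rˣ) : R)) * ((g : R) * g * z + 1) * h := by
          simp only [mul_assoc]
      _ = ((h⁻¹ : Rˣ) : R) * (((z : R) + 1) * (g * g * z + 1)) * h := by
          rw [Units.mul_inv, mul_one]; simp only [mul_assoc]
  have e3 : ((z : R) + 1) * (g * g * z) * (1 + z * z) = 0 := by
    have h3 : ((z : R) + 1) * (g * g * z) * (1 + z * z) + (((z : R) + 1) + (z + 1)) =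
        ((z : R) + 1) * (g * g * z + 1) + ((z : R) + 1) * (g * g * z * (z * z) + 1) := by noncomm_ring
    rw [h2, add_zero, e1, e2, add_zero] at h3
    exact h3
  have e4 : ((z : R) + 1) * (1 + z * z) = 0 := by
    have h3 : ((z : R) + 1) * (g * g * z) = (g * g * z) * (z + 1) := by
      have : (z : R) * (g * g * z) = g * g * z * z := by
        rw [← mul_assoc, ← mul_assoc, hzg', mul_assoc (g : R), hzg', ← mul_assoc]
      rw [add_mul, mul_add, this, one_mul, mul_one]
    rw [h3, mul_assoc] at e3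
    have h4 : (((g * g * z)⁻¹ : Rˣ) : R) * ((g : R) * g * z) = 1 := by
      rw [← Units.val_mul, ← Units.val_mul, Units.inv_mul]
    have h5 := congrArg (fun r => (((g * g * z)⁻¹ : Rˣ) : R) * r) e3
    simp only [mul_zero] at h5
    rw [← mul_assoc, h4, one_mul] at h5
    exact h5
  apply hz2
  apply Units.ext
  rw [Units.val_one]
  apply eq_of_add h2
  rw [Units.val_pow_eq_pow_val]
  have h3 : (z : R) ^ 4 + 1 + (((z : R) + z * z + z * z * z) + (z + z * z + z * z * z)) =
      ((z : R) + 1) * ((z + 1) * (1 + z * z)) := by noncomm_ring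
  rw [h2, add_zero, e4, mul_zero] at h3
  exact h3

/-- If `k`, `k^s`, `k^(s²)` commute pairwise then `s` commutes with `k`. -/
theorem comm_of_abelian (h2 : ∀ r : R, r + r = 0) {s : Rˣ} (hs : Quad s) {K : Subgroup Rˣ}
    (hK2 : ∀ k ∈ K, k ^ 2 = 1 → k = 1) (hK3 : ∀ k ∈ K, k ^ 3 = 1 → k = 1) (hsK : ∀ k ∈ K, s⁻¹ * k * s ∈ K)
    {k : Rˣ} (hk : k ∈ K) (h1 : Commute k (s⁻¹ * k * s)) : s⁻¹ * k * s = k := by
  have hs3 : s * s * s = 1 := by rw [← hs.cube, pow_succ, pow_two]
  -- the three conjugates commute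
  have h12 : Commute (s⁻¹ * k * s) (s⁻¹ * (s⁻¹ * k * s) * s) := by
    have := h1.map (MulAut.conj s⁻¹).toMonoidHom
    simpa [MulAut.conj_apply] using this
  have h20 : Commute (s⁻¹ * (s⁻¹ * k * s) * s) k := by
    have := h12.map (MulAut.conj s⁻¹).toMonoidHom
    have e : s⁻¹ * (s⁻¹ * (s⁻¹ * k * s) * s) * s = k := by
      have : s⁻¹ * (s⁻¹ * (s⁻¹ * k * s) * s) * s = (s * s * s)⁻¹ * k * (s * s * s) := by group
      rw [this, hs3]; simp
    simp only [MulEquiv.coe_toMonoidHom, MulAut.conj_apply, inv_inv] at this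
    rwa [e] at this
  set k1 := s⁻¹ * k * s with hk1
  set k2 := s⁻¹ * k1 * s with hk2
  have e3 : s⁻¹ * k2 * s = k := by
    have : s⁻¹ * (s⁻¹ * (s⁻¹ * k * s) * s) * s = (s * s * s)⁻¹ * k * (s * s * s) := by group
    rw [hk2, hk1, this, hs3]; simp
  have m1 : k1 ∈ K := hsK k hk
  have m2 : k2 ∈ K := hsK k1 m1
  -- the elements `a`, `b`, `c`
  have ca : Commute (k1⁻¹ * k) (k2⁻¹ * k1) :=
    (((h12.inv_inv).mul_right (Commute.refl k1).inv_left).mul_left ((h20.symm.inv_right).mul_right h1))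
  have cb : Commute (k2⁻¹ * k1) (k⁻¹ * k2) :=
    (((h20.inv_inv).mul_right (Commute.refl k2).inv_left).mul_left ((h1.symm.inv_right).mul_right h12))
  have cc : Commute (k1⁻¹ * k) (k⁻¹ * k2) :=
    (((h1.symm.inv_inv).mul_right h12.inv_left).mul_left (((Commute.refl k).inv_right).mul_right h20.symm))
  have hprod : (k1⁻¹ * k) * (k2⁻¹ * k1) * (k⁻¹ * k2) = 1 := by
    rw [ca.eq]
    have : (k2⁻¹ * k1) * (k1⁻¹ * k) * (k⁻¹ * k2) = 1 := by group
    exact this
  have ta : ∀ u v : Rˣ, s⁻¹ * u * s = v → tr (v⁻¹ * u) = tr (s⁻¹ * (v⁻¹ * u) * s) := by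
    intro u v huv
    have e : v⁻¹ * u = s⁻¹ * (u⁻¹ * s * u) := by rw [← huv]; group
    rw [e]
    have := (tr_comm h2 hs.inv (hs.conj u)).1
    have h3 : ∀ T : R, ((s⁻¹ : Rˣ) : R) * T = T * ((s⁻¹ : Rˣ) : R) → (s : R) * T = T * s := by
      intro T hT
      calc (s : R) * T = (s : R) * (T * ((s⁻¹ : Rˣ) : R)) * s := by
            rw [mul_assoc (s : R), mul_assoc T, Units.inv_mul, mul_one]
        _ = (s : R) * (((s⁻¹ : Rˣ) : R) * T) * s := by rw [hT]
        _ = T * s := by rw [← mul_assoc (s : R), Units.mul_inv, one_mul]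
    exact (tr_conj_of_comm (h3 _ this)).symm
  have t1 : tr (k2⁻¹ * k1) = tr (k1⁻¹ * k) := by
    rw [ta k k1 hk1.symm]
    congr 1
    rw [hk2]
    have : s⁻¹ * (k1⁻¹ * k) * s = (s⁻¹ * k1 * s)⁻¹ * (s⁻¹ * k * s) := by group
    rw [this, ← hk1]
  have t2 : tr (k⁻¹ * k2) = tr (k1⁻¹ * k) := by
    rw [← t1, ta k1 k2 hk2.symm]
    congr 1
    have : s⁻¹ * (k2⁻¹ * k1) * s = (s⁻¹ * k2 * s)⁻¹ * (s⁻¹ * k1 * s) := by group
    rw [this, ← hk2, e3]
  have q1 := sq_eq h2 ca cb cc hprod t1 t2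
  have hprod2 : (k2⁻¹ * k1) * (k⁻¹ * k2) * (k1⁻¹ * k) = 1 := by
    rw [← (ca.mul_right cc).eq, ← mul_assoc, hprod]
  have q2 := sq_eq h2 cb cc.symm ca.symm hprod2 (t2.trans t1.symm) t1.symm
  have hodd : ∀ u v : Rˣ, u ∈ K → v ∈ K → Commute u v → u * u = v * v → u = v := by
    intro u v hu hv huv h
    have h3 : (u * v⁻¹) ^ 2 = 1 := by
      rw [(huv.inv_right).mul_pow, pow_two, pow_two, h]; group
    have h4 := hK2 _ (K.mul_mem hu (K.inv_mem hv)) h3
    exact mul_inv_eq_one.mp h4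
  have ma : k1⁻¹ * k ∈ K := K.mul_mem (K.inv_mem m1) hk
  have mb : k2⁻¹ * k1 ∈ K := K.mul_mem (K.inv_mem m2) m1
  have mc : k⁻¹ * k2 ∈ K := K.mul_mem (K.inv_mem hk) m2
  have r1 := hodd _ _ ma mb ca q1
  have r2 := hodd _ _ mb mc cb q2
  have h3 : (k1⁻¹ * k) ^ 3 = 1 := by
    have h5 : ∀ a b c : Rˣ, a = b → b = c → a * b * c = 1 → a ^ 3 = 1 := by
      intro a b c hab hbc h
      subst hab
      subst hbc
      rw [pow_succ, pow_two, h]
    exact h5 _ _ _ r1 r2 hprod
  have h4 := hK3 _ ma h3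
  rw [inv_mul_eq_one] at h4
  exact h4

/-- The class two case. -/
theorem comm_of_class_two (h2 : ∀ r : R, r + r = 0) {s : Rˣ} (hs : Quad s) {K : Subgroup Rˣ}
    (hK2 : ∀ k ∈ K, k ^ 2 = 1 → k = 1) (hK3 : ∀ k ∈ K, k ^ 3 = 1 → k = 1) (hsK : ∀ k ∈ K, s⁻¹ * k * s ∈ K)
    (hcl : ∀ a ∈ K, ∀ b ∈ K, ∀ c ∈ K, Commute (a⁻¹ * (b⁻¹ * a * b)) c)
    {k : Rˣ} (hk : k ∈ K) : s⁻¹ * k * s = k := by
  obtain ⟨g, hg⟩ : ∃ g : Rˣ, g = s⁻¹ * (k⁻¹ * s * k) := ⟨_, rfl⟩
  have hgK : g ∈ K := by
    have : g = (s⁻¹ * k * s)⁻¹ * k := by rw [hg]; group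
    rw [this]
    exact K.mul_mem (K.inv_mem (hsK k hk)) hk
  have hT := tr_comm h2 hs.inv (hs.conj k)
  rw [← hg] at hT
  have hTg : (g : R) * tr g = tr g * g := by
    rw [tr, mul_add, add_mul, Units.mul_inv, Units.inv_mul]
  have hTs : (s : R) * tr g = tr g * s := by
    calc (s : R) * tr g = (s : R) * (tr g * ((s⁻¹ : Rˣ) : R)) * s := by
          rw [mul_assoc (s : R), mul_assoc (tr g), Units.inv_mul, mul_one]
      _ = (s : R) * (((s⁻¹ : Rˣ) : R) * tr g) * s := by rw [hT.1]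
      _ = tr g * s := by rw [← mul_assoc (s : R), Units.mul_inv, one_mul]
  have hTh : ((s⁻¹ * g * s : Rˣ) : R) * tr g = tr g * ((s⁻¹ * g * s : Rˣ) : R) := by
    rw [Units.val_mul, Units.val_mul, mul_assoc, hTs, mul_assoc (((s⁻¹ : Rˣ) : R)) (g : R), ← mul_assoc (g : R), hTg,
      mul_assoc (tr g), ← mul_assoc (((s⁻¹ : Rˣ) : R)) (tr g), hT.1, mul_assoc, mul_assoc]
  obtain ⟨h, hh⟩ : ∃ h : Rˣ, h = s⁻¹ * g * s := ⟨_, rfl⟩
  rw [← hh] at hTh
  have hhK : h ∈ K := by rw [hh]; exact hsK g hgK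
  have h4 : ∀ z ∈ K, z ^ 4 = 1 → z = 1 := by
    intro z hz h
    apply hK2 z hz
    apply hK2 _ (K.pow_mem hz 2)
    rw [← pow_mul, h]
  have hzK : g⁻¹ * (h⁻¹ * g * h) ∈ K :=
    K.mul_mem (K.inv_mem hgK) (K.mul_mem (K.mul_mem (K.inv_mem hhK) hgK) hhK)
  have hz : g⁻¹ * (h⁻¹ * g * h) = 1 := by
    apply commutator_eq_one h2 (h4 _ hzK) (hcl g hgK h hhK g hgK) (hcl g hgK h hhK h hhK)
    · group
    · rw [mul_inv_cancel_left, tr_conj_of_comm hTh]
  have hgh : Commute g h := by
    rw [inv_mul_eq_one] at hz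
    show g * h = h * g
    calc g * h = h * (h⁻¹ * g * h) := by group
      _ = h * g := by rw [← hz]
  rw [hh] at hgh
  have hsg := comm_of_abelian h2 hs hK2 hK3 hsK hgK hgh
  have hsg' : Commute s g := by
    show s * g = g * s
    calc s * g = s * (s⁻¹ * g * s) := by rw [hsg]
      _ = g * s := by group
  have hg3 : g ^ 3 = 1 := by
    have h5 : (s * g) ^ 3 = 1 := by
      have : s * g = k⁻¹ * s * k := by rw [hg]; group
      rw [this]
      exact (hs.conj k).cube
    rw [hsg'.mul_pow, hs.cube, one_mul] at h5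
    exact h5
  have hg1 := hK3 g hgK hg3
  rw [hg] at hg1
  have h6 : s = k⁻¹ * s * k := by
    rw [inv_mul_eq_one] at hg1
    exact hg1
  calc s⁻¹ * k * s = s⁻¹ * k * (k⁻¹ * s * k) := by rw [← h6]
    _ = k := by group

/-- **Main lemma.** `K` solvable of order prime to six normalised by `s`. -/
theorem comm_of_solvable [Finite R] (h2 : ∀ r : R, r + r = 0) {s : Rˣ} (hs : Quad s) :
    ∀ (n : ℕ) (K : Subgroup Rˣ), Nat.card K ≤ n → Group.IsSolvable K → (∀ k ∈ K, k ^ 2 = 1 → k = 1) →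
    (∀ k ∈ K, k ^ 3 = 1 → k = 1) → (∀ k ∈ K, s⁻¹ * k * s ∈ K) → ∀ k ∈ K, s⁻¹ * k * s = k := by
  intro n
  induction n with
  | zero =>
    intro K hn
    have : 0 < Nat.card K := Nat.card_pos
    omega
  | succ n ih =>
    intro K hn hsol hK2 hK3 hsK k hk
    have hA3 : ∀ a ∈ Subgroup.zpowers s, a ^ 3 = 1 := by
      rintro a ⟨m, rfl⟩
      show (s ^ m) ^ 3 = 1
      rw [← zpow_natCast, ← zpow_mul, mul_comm, zpow_mul, zpow_natCast, hs.cube, one_zpow]
    have hcardA : Nat.card (Subgroup.zpowers s) ∣ 3 := by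
      rw [Nat.card_zpowers]; exact orderOf_dvd_of_pow_eq_one hs.cube
    have hmap : K.map (MulAut.conj s⁻¹).toMonoidHom = K := by
      apply Subgroup.eq_of_le_of_card_ge
      · rintro _ ⟨x, hx, rfl⟩
        simpa [MulAut.conj_apply] using hsK x hx
      · exact (Nat.card_congr ((K.equivMapOfInjective _ (MulAut.conj s⁻¹).injective).toEquiv)).le
    have hsN : s⁻¹ ∈ Subgroup.normalizer (K : Set Rˣ) := by
      rw [Subgroup.mem_normalizer_iff]
      intro x
      constructor
      · intro hx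
        simpa using hsK x hx
      · intro hx
        rw [inv_inv] at hx
        rw [← hmap] at hx
        obtain ⟨y, hy, hyx⟩ := hx
        have : y = x := (MulAut.conj s⁻¹).injective (by simpa [MulAut.conj_apply] using hyx)
        rwa [← this]
    have hAK : Subgroup.zpowers s ≤ Subgroup.normalizer (K : Set Rˣ) := by
      rw [Subgroup.zpowers_le]
      have := (Subgroup.normalizer (K : Set Rˣ)).inv_mem hsN
      rwa [inv_inv] at this
    have hcop : (Nat.card (Subgroup.zpowers s)).Coprime (Nat.card K) := by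
      rcases (Nat.dvd_prime Nat.prime_three).mp hcardA with h | h
      · rw [h]; exact Nat.coprime_one_left _
      · rw [h]
        rw [Nat.Prime.coprime_iff_not_dvd Nat.prime_three]
        intro hd
        obtain ⟨x, hx⟩ := exists_prime_orderOf_dvd_card' (hp := ⟨Nat.prime_three⟩) 3 hd
        have h3 : (x : Rˣ) = 1 := by
          apply hK3 _ x.2
          have := pow_orderOf_eq_one x
          rw [hx] at this
          have := congrArg Subtype.val this
          simpa using this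
        have h4 : x = 1 := Subtype.ext h3
        rw [h4, orderOf_one] at hx
        omega
    have hcent : ∀ L : Subgroup Rˣ, L ≤ K → L ≠ K → Subgroup.zpowers s ≤ Subgroup.normalizer (L : Set Rˣ) →
        Subgroup.zpowers s ≤ Subgroup.centralizer (L : Set Rˣ) := by
      intro L hLK hne hLs
      have hcard : Nat.card L < Nat.card K := by
        apply lt_of_le_of_ne (Subgroup.card_le_of_le hLK)
        intro h
        exact hne (Subgroup.eq_of_le_of_card_ge hLK h.ge)
      have hsolL : Group.IsSolvable L :=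
        Group.isSolvable_of_isSolvable_injective (f := Subgroup.inclusion hLK) (Subgroup.inclusion_injective hLK)
      have hsL : ∀ k ∈ L, s⁻¹ * k * s ∈ L := by
        intro x hx
        have h1 : s⁻¹ ∈ Subgroup.normalizer (L : Set Rˣ) :=
          Subgroup.inv_mem _ (hLs (Subgroup.mem_zpowers s))
        have h2 := (Subgroup.mem_normalizer_iff.mp h1 x).mp hx
        simpa using h2
      have := ih L (by omega) hsolL (fun x hx => hK2 x (hLK hx)) (fun x hx => hK3 x (hLK hx)) hsL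
      rw [Subgroup.zpowers_le, Subgroup.mem_centralizer_iff]
      intro x hx
      have h5 := this x hx
      calc x * s = s * (s⁻¹ * x * s) := by group
        _ = s * x := by rw [h5]
    have fin : Subgroup.zpowers s ≤ Subgroup.centralizer (K : Set Rˣ) → s⁻¹ * k * s = k := by
      intro h
      have h5 := Subgroup.mem_centralizer_iff.mp (h (Subgroup.mem_zpowers s)) k hk
      rw [mul_assoc, h5]; group
    by_cases hL : (⁅K, Subgroup.zpowers s⁆ : Subgroup Rˣ) = K
    · -- `K = [K, s]`: class at most two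
      by_cases hKb : K = ⊥
      · rw [hKb, Subgroup.mem_bot] at hk
        rw [hk]; group
      have hD : (⁅K, K⁆ : Subgroup Rˣ) ≠ K := by
        intro h
        have hnt : Nontrivial K := (Subgroup.nontrivial_iff_ne_bot K).mpr hKb
        have h1 := Group.IsSolvable.commutator_lt_top_of_nontrivial (G := K)
        have h2 : (commutator K).map K.subtype = ⁅K, K⁆ := by
          rw [commutator_def, Subgroup.map_commutator, ← MonoidHom.range_eq_map, Subgroup.range_subtype]
        rw [h] at h2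
        apply h1.ne
        rw [eq_top_iff]
        intro x _
        have h3 : (x : Rˣ) ∈ (commutator K).map K.subtype := by rw [h2]; exact x.2
        obtain ⟨y, hy, hyx⟩ := h3
        have : y = x := Subtype.ext hyx
        rwa [← this]
      have hDK : (⁅K, K⁆ : Subgroup Rˣ) ≤ K := Subgroup.commutator_le_self K
      have hDs : Subgroup.zpowers s ≤ Subgroup.normalizer ((⁅K, K⁆ : Subgroup Rˣ) : Set Rˣ) := by
        rw [Subgroup.zpowers_le]
        have hmK : K.map (MulAut.conj s).toMonoidHom = K := by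
          have := Subgroup.mem_normalizer_iff.mp (hAK (Subgroup.mem_zpowers s))
          apply le_antisymm
          · rintro _ ⟨x, hx, rfl⟩
            exact (this x).mp hx
          · intro x hx
            refine ⟨s⁻¹ * x * s, ?_, by simp [MulAut.conj_apply, mul_assoc]⟩
            exact hsK x hx
        have hmD : (⁅K, K⁆ : Subgroup Rˣ).map (MulAut.conj s).toMonoidHom = ⁅K, K⁆ := by
          rw [Subgroup.map_commutator, hmK]
        rw [Subgroup.mem_normalizer_iff]
        intro x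
        constructor
        · intro hx
          rw [← hmD]
          exact ⟨x, hx, rfl⟩
        · intro hx
          rw [← hmD] at hx
          obtain ⟨y, hy, hyx⟩ := hx
          have : y = x := (MulAut.conj s).injective (by simpa [MulAut.conj_apply] using hyx)
          rwa [← this]
      have hcD := hcent _ hDK hD hDs
      have h3 : (⁅⁅K, Subgroup.zpowers s⁆, ⁅K, K⁆⁆ : Subgroup Rˣ) = ⊥ := by
        apply Subgroup.commutator_commutator_eq_bot_of_rotate
        · have : (⁅Subgroup.zpowers s, ⁅K, K⁆⁆ : Subgroup Rˣ) = ⊥ :=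
            Subgroup.commutator_eq_bot_iff_le_centralizer.mpr hcD
          rw [this, Subgroup.commutator_bot_left]
        · have h5 : (⁅⁅K, K⁆, K⁆ : Subgroup Rˣ) ≤ ⁅K, K⁆ := by
            exact Subgroup.commutator_mono hDK le_rfl
          rw [Subgroup.commutator_comm, eq_bot_iff]
          refine (Subgroup.commutator_mono le_rfl h5).trans ?_
          rw [Subgroup.commutator_eq_bot_iff_le_centralizer.mpr hcD]
      rw [hL] at h3
      have h4 : K ≤ Subgroup.centralizer ((⁅K, K⁆ : Subgroup Rˣ) : Set Rˣ) :=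
        Subgroup.commutator_eq_bot_iff_le_centralizer.mp h3
      apply comm_of_class_two h2 hs hK2 hK3 hsK _ hk
      intro a ha b hb c hc
      have h5 : a⁻¹ * (b⁻¹ * a * b) ∈ (⁅K, K⁆ : Subgroup Rˣ) := by
        have := Subgroup.commutator_mem_commutator (K.inv_mem ha) (K.inv_mem hb)
        rw [commutatorElement_def, inv_inv, inv_inv] at this
        simpa [mul_assoc] using this
      exact Subgroup.mem_centralizer_iff.mp (h4 hc) _ h5
    · have hLK : (⁅K, Subgroup.zpowers s⁆ : Subgroup Rˣ) ≤ K := Lib.CoprimeCommutator.commutator_le_left hAK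
      have h1 := hcent _ hLK hL (Lib.CoprimeCommutator.right_le_normalizer_commutator K _)
      exact fin (Lib.CoprimeCommutator.le_centralizer_of_commutator _ K hAK hcop h1)

end Cfsg.Agent.H271.QuadTwo
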